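import Cfsg.Agent.Lib.Char.ClassSum
import Cfsg.Agent.Lib.Char.RealOdd
import Cfsg.Agent.Lib.Char.Central

/-!
# Existence of irreducible characters from class sum matrices

Let `K` be a conjugacy class of `G`.  Every irreducible character `χ` is an eigenvector of the
operator `f ↦ (g ↦ ∑_{y ∈ K} f (g y))`.  A left eigenvector of the matrix of this operator on a
multiplicatively closed list of representatives, with non-zero coefficient at the identity, shows
that some irreducible character has the corresponding eigenvalue.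
-/

set_option autoImplicit false

namespace Cfsg.Agent.Lib.IrrCert.Basic

open Cfsg Cfsg.Agent.Lib.Char.Complete Cfsg.Agent.Lib.Char.ClassSum Cfsg.Agent.Lib.Char.Degree
  Cfsg.Agent.Lib.Char.Basic Cfsg.Agent.Lib.Char.Ortho
open scoped ComplexConjugate

section Abstract

variable {G : Type*} [Group G] [Finite G]

/-- The eigenvalue equation of an irreducible character for a class sum. -/
theorem sum_class_mul {χ : G → ℂ} (hχ : IsIrrCharacter G χ) (t g : G) (K : Finset G)
    (hK : ∀ y, y ∈ K ↔ IsConj t y) :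
    (∑ y ∈ K, χ (g * y)) * χ 1 = (K.card : ℂ) * χ t * χ g := by
  classical
  cases nonempty_fintype G
  have h1 := sum_irr_mul_conj' hχ g t
  have h2 := sum_conj_eq_card_mul_sum_class t (fun y => χ (g * y))
  have h3 := card_class_mul_card_centralizer t
  have hfil : Finset.univ.filter (fun x => IsConj t x) = K := by
    ext y
    simp [hK]
  have hcard : Nat.card {x : G // IsConj t x} = K.card := by
    rw [← hfil, Nat.card_eq_fintype_card, Fintype.card_subtype]
  rw [hcard] at h3
  have h4 : (∑ u : G, χ (g * (u * t * u⁻¹))) =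
      (Nat.card (Subgroup.centralizer ({t} : Set G)) : ℂ) * ∑ y ∈ K, χ (g * y) := by
    rw [← hfil]
    convert h2 using 3
  rw [h4] at h1
  have hC : (Nat.card (Subgroup.centralizer ({t} : Set G)) : ℂ) ≠ 0 := by
    exact_mod_cast Nat.card_pos.ne'
  have h10 : χ 1 ≠ 0 := irr_one_ne_zero hχ
  have h5 : (Nat.card G : ℂ) = (K.card : ℂ) * (Nat.card (Subgroup.centralizer ({t} : Set G)) : ℂ) := by
    rw [← h3]
    push_cast
    ring
  rw [h5] at h1
  field_simp at h1
  linear_combination h1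

/-- A left eigenvector with non-zero coefficient at the identity yields an irreducible character
with the corresponding eigenvalue. -/
theorem exists_irr_eigen {n : ℕ} (hn : 0 < n) (r : ℕ → G) (hr0 : r 0 = 1)
    (hr : ∀ k, k < n → k ≠ 0 → r k ≠ 1) (M : ℕ → ℕ → ℕ) (L : ℕ → ℤ) (lam : ℤ)
    (hrow : ∀ χ : G → ℂ, IsIrrCharacter G χ → ∃ ω : ℂ, ∀ j, j < n →
      ∑ k ∈ Finset.range n, (M j k : ℂ) * χ (r k) = ω * χ (r j))
    (hL : ∀ k, k < n → ∑ j ∈ Finset.range n, L j * (M j k : ℤ) = lam * L k) (hL0 : L 0 ≠ 0) :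
    ∃ χ : G → ℂ, IsIrrCharacter G χ ∧ ∀ j, j < n →
      ∑ k ∈ Finset.range n, (M j k : ℂ) * χ (r k) = (lam : ℂ) * χ (r j) := by
  classical
  cases nonempty_fintype G
  have := finite_irrCharacter (G := G)
  cases nonempty_fintype (IrrCharacter G)
  by_contra hcon
  push Not at hcon
  -- for each irreducible the left form vanishes
  have hS : ∀ χ : IrrCharacter G, ∑ k ∈ Finset.range n, (L k : ℂ) * (χ : G → ℂ) (r k) = 0 := by
    intro χ
    by_contra hne
    obtain ⟨ω, hω⟩ := hrow _ χ.2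
    have h1 : ∑ k ∈ Finset.range n, (L k : ℂ) * (χ : G → ℂ) (r k) * ω =
        (lam : ℂ) * ∑ k ∈ Finset.range n, (L k : ℂ) * (χ : G → ℂ) (r k) := by
      calc ∑ k ∈ Finset.range n, (L k : ℂ) * (χ : G → ℂ) (r k) * ω
          = ∑ j ∈ Finset.range n, (L j : ℂ) * (ω * (χ : G → ℂ) (r j)) :=
            Finset.sum_congr rfl fun j _ => by ring
        _ = ∑ j ∈ Finset.range n, (L j : ℂ) * ∑ k ∈ Finset.range n, (M j k : ℂ) * (χ : G → ℂ) (r k) :=
            Finset.sum_congr rfl fun j hj => by rw [hω j (Finset.mem_range.1 hj)]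
        _ = ∑ k ∈ Finset.range n, (∑ j ∈ Finset.range n, (L j : ℂ) * (M j k : ℂ)) * (χ : G → ℂ) (r k) := by
            simp only [Finset.mul_sum, Finset.sum_mul]
            rw [Finset.sum_comm]
            refine Finset.sum_congr rfl fun k _ => Finset.sum_congr rfl fun j _ => by ring
        _ = ∑ k ∈ Finset.range n, ((lam : ℂ) * (L k : ℂ)) * (χ : G → ℂ) (r k) := by
            refine Finset.sum_congr rfl fun k hk => ?_
            congr 1
            have := hL k (Finset.mem_range.1 hk)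
            exact_mod_cast this
        _ = _ := by
            rw [Finset.mul_sum]
            refine Finset.sum_congr rfl fun k _ => by ring
    have h2 : ω = (lam : ℂ) := by
      apply mul_left_cancel₀ hne
      rw [← Finset.sum_mul] at h1
      rw [h1]
      ring
    obtain ⟨j, hj, hj2⟩ := hcon _ χ.2
    exact hj2 (by rw [hω j hj, h2])
  -- the orthogonality relation
  have hT : ∑ χ : IrrCharacter G, ∑ k ∈ Finset.range n, (L k : ℂ) * ((χ : G → ℂ) (r k) * conj ((χ : G → ℂ) 1))
      = (L 0 : ℂ) * (Nat.card G : ℂ) := by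
    rw [Finset.sum_comm]
    have h3 : ∀ k ∈ Finset.range n, ∑ χ : IrrCharacter G, (L k : ℂ) * ((χ : G → ℂ) (r k) * conj ((χ : G → ℂ) 1))
        = if k = 0 then (L 0 : ℂ) * (Nat.card G : ℂ) else 0 := by
      intro k hk
      rw [← Finset.mul_sum, sum_irr_mul_conj]
      by_cases hk0 : k = 0
      · subst hk0
        rw [hr0, if_pos (IsConj.refl _), if_pos rfl]
        have : Subgroup.centralizer ({(1 : G)} : Set G) = ⊤ := by
          ext x
          simp [Subgroup.mem_centralizer_singleton_iff]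
        rw [this, Subgroup.card_top]
      · rw [if_neg hk0, if_neg, mul_zero]
        intro hc
        exact hr k (Finset.mem_range.1 hk) hk0 (isConj_one_right.1 hc.symm)
    rw [Finset.sum_congr rfl h3, Finset.sum_ite_eq', if_pos (Finset.mem_range.2 hn)]
  have hz : ∑ χ : IrrCharacter G, ∑ k ∈ Finset.range n, (L k : ℂ) * ((χ : G → ℂ) (r k) * conj ((χ : G → ℂ) 1)) = 0 := by
    refine Finset.sum_eq_zero fun χ _ => ?_
    have := hS χ
    calc ∑ k ∈ Finset.range n, (L k : ℂ) * ((χ : G → ℂ) (r k) * conj ((χ : G → ℂ) 1))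
        = (∑ k ∈ Finset.range n, (L k : ℂ) * (χ : G → ℂ) (r k)) * conj ((χ : G → ℂ) 1) := by
          rw [Finset.sum_mul]
          exact Finset.sum_congr rfl fun k _ => by ring
      _ = 0 := by rw [this, zero_mul]
  rw [hz] at hT
  have hne : (L 0 : ℂ) * (Nat.card G : ℂ) ≠ 0 := by
    apply mul_ne_zero
    · exact_mod_cast hL0
    · exact_mod_cast Nat.card_pos.ne'
  exact hne hT.symm

/-- An integrality argument: a rational multiple of the degree which is a character value. -/
theorem dvd_charDegree {χ : G → ℂ} (hχ : IsIrrCharacter G χ) {d : ℕ} (hd : d ≠ 0) {x : G} {s : ℂ}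
    (hs : s = 1 ∨ s = -1) (h : (d : ℂ) * (s * χ x) = χ 1) : d ∣ charDegree χ := by
  apply Cfsg.Agent.Lib.Char.Central.nat_dvd_of_isIntegral_div hd
  have h1 : IsIntegral ℤ (χ x) := Cfsg.Agent.Lib.Char.RealOdd.isIntegral_irr hχ x
  have hd' : (d : ℂ) ≠ 0 := by exact_mod_cast hd
  have h2 : (charDegree χ : ℂ) / (d : ℂ) = s * χ x := by
    rw [charDegree_natCast (isCharacter_of_isIrrCharacter hχ), ← h]
    field_simp
  rw [h2]
  rcases hs with rfl | rfl
  · simpa using h1
  · simpa using h1.neg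

/-- The final step: a combination of the rows which expresses the degree through a single value. -/
theorem exists_irr_dvd {n : ℕ} (hn : 0 < n) (r : ℕ → G) (hr0 : r 0 = 1)
    (hr : ∀ k, k < n → k ≠ 0 → r k ≠ 1) (M : ℕ → ℕ → ℕ) (L : ℕ → ℤ) (lam : ℤ)
    (hrow : ∀ χ : G → ℂ, IsIrrCharacter G χ → ∃ ω : ℂ, ∀ j, j < n →
      ∑ k ∈ Finset.range n, (M j k : ℂ) * χ (r k) = ω * χ (r j))
    (hL : ∀ k, k < n → ∑ j ∈ Finset.range n, L j * (M j k : ℤ) = lam * L k) (hL0 : L 0 ≠ 0)
    (C : ℕ → ℤ) (N : ℤ) (hN : N ≠ 0) {d : ℕ} (hd : d ≠ 0) {a : ℕ} (ha : a < n) {s : ℤ}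
    (hs : s = 1 ∨ s = -1)
    (hC : ∀ k, k < n → ∑ j ∈ Finset.range n, C j * (M j k : ℤ) - lam * C k =
      N * ((if k = 0 then 1 else 0) - d * s * (if k = a then 1 else 0))) :
    ∃ χ : G → ℂ, IsIrrCharacter G χ ∧ d ∣ charDegree χ := by
  classical
  obtain ⟨χ, hχ, he⟩ := exists_irr_eigen hn r hr0 hr M L lam hrow hL hL0
  refine ⟨χ, hχ, ?_⟩
  apply dvd_charDegree hχ hd (x := r a) (s := (s : ℂ))
    (by rcases hs with rfl | rfl <;> simp)
  have h0 : ∑ j ∈ Finset.range n,
      (C j : ℂ) * (∑ k ∈ Finset.range n, (M j k : ℂ) * χ (r k) - lam * χ (r j)) = 0 := by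
    refine Finset.sum_eq_zero fun j hj => ?_
    rw [he j (Finset.mem_range.1 hj), sub_self, mul_zero]
  have h1 : ∑ j ∈ Finset.range n,
      (C j : ℂ) * (∑ k ∈ Finset.range n, (M j k : ℂ) * χ (r k) - lam * χ (r j)) =
      ∑ k ∈ Finset.range n, (∑ j ∈ Finset.range n, (C j : ℂ) * (M j k : ℂ) - lam * C k) * χ (r k) := by
    simp only [mul_sub, Finset.sum_sub_distrib, sub_mul]
    congr 1
    · simp only [Finset.mul_sum, Finset.sum_mul]
      rw [Finset.sum_comm]
      refine Finset.sum_congr rfl fun k _ => Finset.sum_congr rfl fun j _ => by ring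
    · refine Finset.sum_congr rfl fun k _ => by ring
  have h2 : ∀ k ∈ Finset.range n,
      (∑ j ∈ Finset.range n, (C j : ℂ) * (M j k : ℂ) - lam * C k) * χ (r k) =
      (N : ℂ) * ((if k = 0 then χ (r k) else 0) -
        (d : ℂ) * (s : ℂ) * (if k = a then χ (r k) else 0)) := by
    intro k hk
    have h3 := congrArg (fun z : ℤ => (z : ℂ)) (hC k (Finset.mem_range.1 hk))
    simp only [Int.cast_sub, Int.cast_sum, Int.cast_mul, Int.cast_natCast] at h3
    rw [h3]
    split_ifs <;> simp <;> ring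
  rw [h1, Finset.sum_congr rfl h2, ← Finset.mul_sum, Finset.sum_sub_distrib, ← Finset.mul_sum,
    Finset.sum_ite_eq', Finset.sum_ite_eq', if_pos (Finset.mem_range.2 hn),
    if_pos (Finset.mem_range.2 ha), hr0] at h0
  have hN' : (N : ℂ) ≠ 0 := by exact_mod_cast hN
  have h4 := (mul_eq_zero.1 h0).resolve_left hN'
  linear_combination -h4

end Abstract

/-! ### Subgroups: class functions on the ambient group -/

section Sub

variable {Γ : Type*} [Group Γ] {G : Subgroup Γ}

/-- The extension by zero of a function on a subgroup. -/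
noncomputable def ext (χ : G → ℂ) (x : Γ) : ℂ := by
  classical
  exact if h : x ∈ G then χ ⟨x, h⟩ else 0

theorem ext_mem (χ : G → ℂ) {x : Γ} (h : x ∈ G) : ext χ x = χ ⟨x, h⟩ := by
  unfold ext
  rw [dif_pos h]

theorem ext_coe (χ : G → ℂ) (x : G) : ext χ (x : Γ) = χ x := by
  rw [ext_mem χ x.2]

theorem ext_conj {χ : G → ℂ} (hχ : IsIrrCharacter G χ) {u x : Γ} (hu : u ∈ G) (hx : x ∈ G) :
    ext χ (u * x * u⁻¹) = ext χ x := by
  have h := (isClassFunction_iff_isConj.mp (isClassFunction_of_isIrrCharacter hχ))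
    (⟨x, hx⟩ : G) (⟨u * x * u⁻¹, G.mul_mem (G.mul_mem hu hx) (G.inv_mem hu)⟩ : G)
    (isConj_iff.2 ⟨⟨u, hu⟩, rfl⟩)
  rw [ext_mem χ (G.mul_mem (G.mul_mem hu hx) (G.inv_mem hu)), ext_mem χ hx]
  exact h.symm

/-- The eigenvalue equation with a list for the class. -/
theorem sum_list_class [Finite G] {χ : G → ℂ} (hχ : IsIrrCharacter G χ) {t : Γ} (ht : t ∈ G)
    (K : List Γ) (hnd : K.Nodup) (hK : ∀ σ, σ ∈ K ↔ ∃ u ∈ G, σ = u * t * u⁻¹) {g : Γ} (hg : g ∈ G) :
    (K.map fun y => ext χ (g * y)).sum * χ 1 = (K.length : ℂ) * ext χ t * ext χ g := by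
  classical
  cases nonempty_fintype G
  let K' : Finset G := Finset.univ.filter (fun x => (x : Γ) ∈ K)
  have hK' : ∀ y, y ∈ K' ↔ IsConj (⟨t, ht⟩ : G) y := by
    intro y
    simp only [K', Finset.mem_filter, Finset.mem_univ, true_and]
    rw [hK, isConj_iff]
    constructor
    · rintro ⟨u, hu, he⟩
      exact ⟨⟨u, hu⟩, Subtype.ext he.symm⟩
    · rintro ⟨u, rfl⟩
      exact ⟨u, u.2, rfl⟩
  have h1 := sum_class_mul hχ ⟨t, ht⟩ ⟨g, hg⟩ K' hK'
  have hsum : ∑ y ∈ K', χ (⟨g, hg⟩ * y) = (K.map fun y => ext χ (g * y)).sum := by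
    rw [← List.sum_toFinset _ hnd]
    have hmap : K.toFinset = K'.map ⟨Subtype.val, Subtype.val_injective⟩ := by
      ext σ
      simp only [List.mem_toFinset, Finset.mem_map, Function.Embedding.coeFn_mk, K',
        Finset.mem_filter, Finset.mem_univ, true_and]
      constructor
      · intro hσ
        obtain ⟨u, hu, he⟩ := (hK σ).1 hσ
        have hσG : σ ∈ G := by
          rw [he]
          exact G.mul_mem (G.mul_mem hu ht) (G.inv_mem hu)
        exact ⟨⟨σ, hσG⟩, hσ, rfl⟩
      · rintro ⟨y, hy, rfl⟩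
        exact hy
    rw [hmap, Finset.sum_map]
    refine Finset.sum_congr rfl fun y _ => ?_
    simp only [Function.Embedding.coeFn_mk]
    rw [ext_mem χ (G.mul_mem hg y.2)]
    rfl
  have hcard : K'.card = K.length := by
    rw [← List.toFinset_card_of_nodup hnd]
    have hmap : K.toFinset = K'.map ⟨Subtype.val, Subtype.val_injective⟩ := by
      ext σ
      simp only [List.mem_toFinset, Finset.mem_map, Function.Embedding.coeFn_mk, K',
        Finset.mem_filter, Finset.mem_univ, true_and]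
      constructor
      · intro hσ
        obtain ⟨u, hu, he⟩ := (hK σ).1 hσ
        have hσG : σ ∈ G := by
          rw [he]
          exact G.mul_mem (G.mul_mem hu ht) (G.inv_mem hu)
        exact ⟨⟨σ, hσG⟩, hσ, rfl⟩
      · rintro ⟨y, hy, rfl⟩
        exact hy
    rw [hmap, Finset.card_map]
  rw [hsum, hcard] at h1
  rw [h1, ext_mem χ ht, ext_mem χ hg]

end Sub

end Cfsg.Agent.Lib.IrrCert.Basic
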