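import Cfsg.Agent.Lib.IrrCert.Basic
import Cfsg.Agent.Lib.PermComp.Simple
import Cfsg.Agent.Lib.PermComp.Chain

/-!
# Irreducible characters of explicit permutation groups

A check in the kernel of a conjugacy class `K` and of the matrix of its class sum on a list of class
representatives (with conjugating witnesses) yields an irreducible character whose degree is
divisible by a prescribed number.
-/

set_option autoImplicit false

namespace Cfsg.Agent.Lib.IrrCert.Perm

open Cfsg Cfsg.Agent.Lib.PermComp.Core Cfsg.Agent.Lib.PermComp.Simple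
  Cfsg.Agent.Lib.IrrCert.Basic

/-! ### Kernel friendly list checks -/

/-- Strictly increasing, starting above `p`. -/
noncomputable def sortedAux (l : List Nat) : Nat → Bool :=
  List.rec (motive := fun _ => Nat → Bool) (fun _ => true)
    (fun a _ ih p => ifB (Nat.ble (Nat.succ p) a) (ih a)) l

theorem sortedAux_spec : ∀ (l : List Nat) (p : Nat), sortedAux l p = true →
    (∀ x ∈ l, p < x) ∧ l.Nodup := by
  intro l
  induction l with
  | nil => intro p _; simp
  | cons a l ih =>
    intro p h
    have h' : ifB (Nat.ble (Nat.succ p) a) (sortedAux l a) = true := h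
    rw [ifB_eq_true] at h'
    obtain ⟨h1, h2⟩ := h'
    have hpa : p < a := Nat.le_of_ble_eq_true h1
    obtain ⟨h3, h4⟩ := ih a h2
    refine ⟨?_, ?_⟩
    · intro x hx
      rcases List.mem_cons.1 hx with rfl | hx
      · exact hpa
      · exact hpa.trans (h3 x hx)
    · refine List.nodup_cons.2 ⟨fun hm => lt_irrefl _ (h3 a hm), h4⟩

/-- A check on two lists of the same length. -/
noncomputable def all2 {β γ : Type} (f : β → γ → Bool) (l : List β) : List γ → Bool :=
  List.rec (motive := fun _ => List γ → Bool)
    (fun m => List.rec true (fun _ _ _ => false) m)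
    (fun a _ ih m => List.rec false (fun b m' _ => ifB (f a b) (ih m')) m) l

theorem all2_spec {β γ : Type} (f : β → γ → Bool) : ∀ (l : List β) (m : List γ),
    all2 f l m = true → List.Forall₂ (fun a b => f a b = true) l m := by
  intro l
  induction l with
  | nil =>
    intro m h
    cases m with
    | nil => exact List.Forall₂.nil
    | cons b m => exact absurd h (by simp [all2])
  | cons a l ih =>
    intro m h
    cases m with
    | nil => exact absurd h (by simp [all2])
    | cons b m =>
      have h' : ifB (f a b) (all2 f l m) = true := h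
      rw [ifB_eq_true] at h'
      exact List.Forall₂.cons h'.1 (ih m h'.2)

theorem forall2_nth {β : Type} {P : Nat → List β → Prop} : ∀ {l : List Nat} {m : List (List β)},
    List.Forall₂ P l m → ∀ j, j < l.length → P (nthN l j) (m.getD j []) := by
  intro l m h
  induction h with
  | nil => intro j hj; simp at hj
  | @cons a b l m hab _ ih =>
    intro j hj
    cases j with
    | zero => exact hab
    | succ j =>
      have h1 : nthN (a :: l) (j + 1) = nthN l j := rfl
      rw [h1]
      simpa using ih j (by simpa using hj)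

/-! ### The sum over the entries of a row -/

theorem sum_map_snd (W : List (Nat × Nat)) (f : ℕ → ℂ) (m : ℕ) (h : ∀ p ∈ W, p.2 < m) :
    (W.map fun p => f p.2).sum =
      ∑ k ∈ Finset.range m, ((W.map Prod.snd).count k : ℂ) * f k := by
  induction W with
  | nil => simp
  | cons q W ih =>
    have h1 := ih fun p hp => h p (List.mem_cons_of_mem _ hp)
    have hq : q.2 < m := h q List.mem_cons_self
    simp only [List.map_cons, List.sum_cons, List.count_cons]
    rw [h1]
    have h2 : ∀ k ∈ Finset.range m,
        (((W.map Prod.snd).count k + if (q.2 == k) = true then 1 else 0 : ℕ) : ℂ) * f k =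
          ((W.map Prod.snd).count k : ℂ) * f k + (if k = q.2 then f k else 0) := by
      intro k _
      by_cases hk : k = q.2
      · subst hk
        simp
        ring
      · have : ¬ (q.2 = k) := fun h => hk h.symm
        simp [hk, this]
    rw [Finset.sum_congr rfl h2, Finset.sum_add_distrib, Finset.sum_ite_eq',
      if_pos (Finset.mem_range.2 hq), add_comm]

theorem sum_range_eq_list {A : Type} [AddCommMonoid A] (m : ℕ) (f : ℕ → A) :
    ∑ k ∈ Finset.range m, f k = ((List.range m).map f).sum := by
  induction m with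
  | zero => simp
  | succ m ih =>
    rw [Finset.sum_range_succ, ih, List.range_succ, List.map_append, List.sum_append]
    simp

/-! ### The checks -/

/-- The class `K` of `t` with conjugating witnesses `U`, closed under the generators `T`. -/
noncomputable def classChk (n w mask L maskL idc : Nat) (ls : List Lev) (T : List Nat) (t : Nat)
    (K U : List Nat) : Bool :=
  ifB (validB n w mask idc t) <|
  ifB (sift n w mask L maskL idc ls t) <|
  ifB (memN t K) <|
  ifB (sortedAux K 0) <|
  ifB (allL (fun x => Nat.ble (Nat.succ x) (Nat.pow 2 (Nat.mul n w))) K) <|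
  ifB (all2 (fun x u =>
    ifB (validB n w mask idc x) <|
    ifB (validB n w mask idc u) <|
    ifB (sift n w mask L maskL idc ls u) <|
    Nat.beq (comp n w mask u t) (comp n w mask x u)) K U) <|
  allL (fun c =>
    ifB (validB n w mask idc c) <|
    force (inv n w mask c) fun d =>
      allL (fun x => force (comp n w mask (comp n w mask c x) d) fun y => memN y K) K) T

/-- One row of the matrix of the class sum. -/
noncomputable def rowChk (n w mask L maskL idc : Nat) (ls : List Lev) (reps K : List Nat) (m : Nat)
    (r : Nat) (W : List (Nat × Nat)) : Bool :=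
  all2 (fun x p =>
    ifB (Nat.ble (Nat.succ p.2) m) <|
    ifB (validB n w mask idc p.1) <|
    ifB (sift n w mask L maskL idc ls p.1) <|
    Nat.beq (comp n w mask p.1 (comp n w mask r x)) (comp n w mask (nthN reps p.2) p.1)) K W

/-- A representative different from the identity. -/
noncomputable def repChk (n w mask L maskL idc : Nat) (ls : List Lev) (c : Nat) : Bool :=
  ifB (validB n w mask idc c) <|
  ifB (sift n w mask L maskL idc ls c) <|
  ifB (Nat.ble (Nat.succ c) (Nat.pow 2 (Nat.mul n w))) <|
  (!(Nat.beq c idc))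

/-- All group checks. -/
noncomputable def groupChk (n w mask L maskL idc : Nat) (ls : List Lev) (T rest : List Nat) (t : Nat)
    (K U : List Nat) (Ws : List (List (Nat × Nat))) : Bool :=
  ifB (classChk n w mask L maskL idc ls T t K U) <|
  ifB (allL (repChk n w mask L maskL idc ls) rest) <|
  all2 (rowChk n w mask L maskL idc ls (idc :: rest) K (rest.length + 1)) (idc :: rest) Ws

/-- The matrix of the class sum. -/
def mat (Ws : List (List (Nat × Nat))) (j k : ℕ) : ℕ :=
  ((Ws.getD j []).map Prod.snd).count k

/-- The arithmetic checks. -/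
def arithChk (m : ℕ) (Ws : List (List (Nat × Nat))) (Lv : List ℤ) (lam : ℤ) (C : List ℤ) (N : ℤ)
    (d a : ℕ) (s : ℤ) : Bool :=
  decide (0 < m) && decide (Lv.getD 0 0 ≠ 0) && decide (N ≠ 0) && decide (d ≠ 0) && decide (a < m) &&
    decide (s = 1 ∨ s = -1) &&
    (List.range m).all fun k =>
      decide (((List.range m).map fun j => Lv.getD j 0 * (mat Ws j k : ℤ)).sum = lam * Lv.getD k 0) &&
      decide (((List.range m).map fun j => C.getD j 0 * (mat Ws j k : ℤ)).sum - lam * C.getD k 0 =
        N * ((if k = 0 then 1 else 0) - d * s * (if k = a then 1 else 0)))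

/-! ### Soundness -/

section Sound

variable {n : Nat} {α : Type*} {w mask : Nat} (e : α ≃ Fin n)

/-- The permutation with a given code. -/
noncomputable def gOf (w mask : Nat) (e : α ≃ Fin n) (c : Nat) : Equiv.Perm α := by
  classical
  exact if h : ∃ g, Rep w mask e c g then h.choose else 1

variable {e}

theorem gOf_eq {c : Nat} {g : Equiv.Perm α} (h : Rep w mask e c g) : gOf w mask e c = g := by
  unfold gOf
  rw [dif_pos ⟨g, h⟩]
  exact (Exists.choose_spec (⟨g, h⟩ : ∃ g, Rep w mask e c g)).unique h

variable {L maskL idc : Nat}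

theorem gOf_rep (hm : mask = 2 ^ w - 1) (hid : ∀ i < n, app w mask idc i = i) {c : Nat}
    (h : validB n w mask idc c = true) : Rep w mask e c (gOf w mask e c) := by
  obtain ⟨g, hg⟩ := exists_rep_of_valid (α := α) (e := e) hm hid h
  rw [gOf_eq hg]
  exact hg

theorem gOf_mem (hm : mask = 2 ^ w - 1) (hid : ∀ i < n, app w mask idc i = i) {ls : List Lev}
    (hsem : Sem w mask e L maskL ls) {T : List Nat}
    (hH : H w mask e T = H w mask e (topGens ls)) {c : Nat}
    (h1 : validB n w mask idc c = true) (h2 : sift n w mask L maskL idc ls c = true) :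
    gOf w mask e c ∈ H w mask e T := by
  rw [hH]
  exact sift_sound_of_sem hm hid ls hsem c _ (gOf_rep hm hid h1) h2

theorem forall2_left {β γ : Type} {P : β → γ → Prop} {l : List β} {m : List γ}
    (h : List.Forall₂ P l m) : ∀ x ∈ l, ∃ y, P x y := by
  induction h with
  | nil => intro x hx; simp at hx
  | @cons a b l m hab _ ih =>
    intro x hx
    rcases List.mem_cons.1 hx with rfl | hx
    · exact ⟨b, hab⟩
    · exact ih x hx

variable [Finite α]

/-- The class. -/
theorem class_spec (hm : mask = 2 ^ w - 1) (hid : ∀ i < n, app w mask idc i = i) {ls : List Lev}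
    (hsem : Sem w mask e L maskL ls) {T : List Nat}
    (hH : H w mask e T = H w mask e (topGens ls)) {t : Nat} {K U : List Nat}
    (hc : classChk n w mask L maskL idc ls T t K U = true) :
    gOf w mask e t ∈ H w mask e T ∧ (K.map (gOf w mask e)).Nodup ∧
      (∀ σ, σ ∈ K.map (gOf w mask e) ↔
        ∃ u ∈ H w mask e T, σ = u * gOf w mask e t * u⁻¹) ∧
      ∀ x ∈ K, validB n w mask idc x = true := by
  simp only [classChk, ifB_eq_true] at hc
  obtain ⟨h1, h2, h3, h4, h5, h6, h7⟩ := hc
  have htG := gOf_mem (e := e) (L := L) (maskL := maskL) hm hid hsem hH h1 h2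
  have hF := all2_spec _ _ _ h6
  have hK : ∀ x ∈ K, ∃ u, validB n w mask idc x = true ∧ validB n w mask idc u = true ∧
      sift n w mask L maskL idc ls u = true ∧
      Nat.beq (comp n w mask u t) (comp n w mask x u) = true := by
    intro x hx
    obtain ⟨u, hu⟩ := forall2_left hF x hx
    simp only [ifB_eq_true] at hu
    exact ⟨u, hu⟩
  have hKv : ∀ x ∈ K, validB n w mask idc x = true := fun x hx => by
    obtain ⟨u, hu⟩ := hK x hx
    exact hu.1
  refine ⟨htG, ?_, ?_, hKv⟩
  · refine List.Nodup.map_on ?_ (sortedAux_spec K 0 h4).2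
    intro x hx y hy hxy
    have hrx := gOf_rep (e := e) hm hid (hKv x hx)
    have hry := gOf_rep (e := e) hm hid (hKv y hy)
    have hlx : x < 2 ^ (n * w) := by
      have := Nat.le_of_ble_eq_true ((allL_eq_true _ _).1 h5 x hx)
      exact this
    have hly : y < 2 ^ (n * w) := by
      have := Nat.le_of_ble_eq_true ((allL_eq_true _ _).1 h5 y hy)
      exact this
    apply eq_of_digits hm n x y hlx hly
    intro i hi
    have h8 := hrx (e.symm ⟨i, hi⟩)
    have h9 := hry (e.symm ⟨i, hi⟩)
    rw [hxy, ← h9] at h8
    simpa using h8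
  · intro σ
    constructor
    · intro hσ
      obtain ⟨x, hx, rfl⟩ := List.mem_map.1 hσ
      obtain ⟨u, h8, h9, h10, h11⟩ := hK x hx
      refine ⟨gOf w mask e u, gOf_mem hm hid hsem hH h9 h10, ?_⟩
      have hu := gOf_rep (e := e) hm hid h9
      have ht := gOf_rep (e := e) hm hid h1
      have hxr := gOf_rep (e := e) hm hid h8
      have h12 := hu.comp hm ht
      have h13 := hxr.comp hm hu
      rw [Nat.eq_of_beq_eq_true h11] at h12
      have h14 := h12.unique h13
      rw [h14, mul_inv_cancel_right]
    · rintro ⟨u, hu, rfl⟩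
      have hmem : ∀ v : Equiv.Perm α, v ∈ H w mask e T →
          v * gOf w mask e t * v⁻¹ ∈ K.map (gOf w mask e) := by
        intro v hv
        refine closure_induction_left_finite (P := fun v =>
          v * gOf w mask e t * v⁻¹ ∈ K.map (gOf w mask e)) ?_ ?_ hv
        · simp only [one_mul, inv_one, mul_one]
          exact List.mem_map.2 ⟨t, (memN_eq_true _ _).1 h3, rfl⟩
        · rintro s ⟨c, hc, hs⟩ h hP
          obtain ⟨x, hx, hxe⟩ := List.mem_map.1 hP
          have h8 := (allL_eq_true _ _).1 h7 c hc
          simp only [ifB_eq_true, force_eq] at h8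
          obtain ⟨h9, h10⟩ := h8
          have h11 := (allL_eq_true _ _).1 h10 x hx
          rw [memN_eq_true] at h11
          have h12 : comp n w mask (inv n w mask c) c = idc := by
            simp only [validB, ifB_eq_true] at h9
            exact Nat.eq_of_beq_eq_true h9.2
          have hd := Rep.inv hm hid hs h12
          have hxr := gOf_rep (e := e) hm hid (hKv x hx)
          have h13 := (hs.comp hm hxr).comp hm hd
          refine List.mem_map.2 ⟨_, h11, ?_⟩
          rw [gOf_eq h13, hxe]
          group
      exact hmem u hu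

omit [Finite α] in
/-- The sum over the class for one row. -/
theorem row_sum (hm : mask = 2 ^ w - 1) (hid : ∀ i < n, app w mask idc i = i) {ls : List Lev}
    (hsem : Sem w mask e L maskL ls) {T : List Nat}
    (hH : H w mask e T = H w mask e (topGens ls)) {χ : H w mask e T → ℂ}
    (hχ : IsIrrCharacter _ χ) {reps K : List Nat} {m r : Nat} {W : List (Nat × Nat)}
    (hr : Rep w mask e r (gOf w mask e r)) (hrG : gOf w mask e r ∈ H w mask e T)
    (hK : ∀ x ∈ K, validB n w mask idc x = true ∧ gOf w mask e x ∈ H w mask e T)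
    (hreps : ∀ k, k < m → Rep w mask e (nthN reps k) (gOf w mask e (nthN reps k)))
    (hc : rowChk n w mask L maskL idc ls reps K m r W = true) :
    (K.map fun x => ext χ (gOf w mask e r * gOf w mask e x)).sum =
      (W.map fun p => ext χ (gOf w mask e (nthN reps p.2))).sum ∧ ∀ p ∈ W, p.2 < m := by
  have hF := all2_spec _ _ _ hc
  clear hc
  induction hF with
  | nil => simp
  | @cons x p K W hab _ ih =>
    simp only [ifB_eq_true] at hab
    obtain ⟨h1, h2, h3, h4⟩ := hab
    obtain ⟨ih1, ih2⟩ := ih fun y hy => hK y (List.mem_cons_of_mem _ hy)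
    have hp : p.2 < m := Nat.le_of_ble_eq_true h1
    obtain ⟨hxv, hxG⟩ := hK x List.mem_cons_self
    refine ⟨?_, ?_⟩
    · simp only [List.map_cons, List.sum_cons]
      rw [ih1]
      congr 1
      have hu := gOf_rep (e := e) hm hid h2
      have huG := gOf_mem (e := e) (L := L) (maskL := maskL) hm hid hsem hH h2 h3
      have hxr := gOf_rep (e := e) hm hid hxv
      have h5 := hu.comp hm (hr.comp hm hxr)
      have h6 := (hreps _ hp).comp hm hu
      rw [Nat.eq_of_beq_eq_true h4] at h5
      have h7 := h5.unique h6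
      have h8 : gOf w mask e (nthN reps p.2) =
          gOf w mask e p.1 * (gOf w mask e r * gOf w mask e x) * (gOf w mask e p.1)⁻¹ := by
        rw [h7, mul_inv_cancel_right]
      rw [h8, ext_conj hχ huG (mul_mem hrG hxG)]
    · intro q hq
      rcases List.mem_cons.1 hq with rfl | hq
      · exact hp
      · exact ih2 q hq

/-- The main theorem: the checks yield an irreducible character of degree divisible by `d`. -/
theorem exists_irr_dvd_of_check (hm : mask = 2 ^ w - 1) (hid : ∀ i < n, app w mask idc i = i)
    (hidc : idc < 2 ^ (n * w)) {ls : List Lev} (hsem : Sem w mask e L maskL ls) {T : List Nat}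
    (hH : H w mask e T = H w mask e (topGens ls)) {rest : List Nat} {t : Nat} {K U : List Nat}
    {Ws : List (List (Nat × Nat))}
    (hg : groupChk n w mask L maskL idc ls T rest t K U Ws = true)
    {Lv : List ℤ} {lam : ℤ} {C : List ℤ} {N : ℤ} {d a : ℕ} {s : ℤ}
    (ha : arithChk (rest.length + 1) Ws Lv lam C N d a s = true) :
    ∃ χ : H w mask e T → ℂ, IsIrrCharacter _ χ ∧ d ∣ charDegree χ := by
  classical
  simp only [groupChk, ifB_eq_true] at hg
  obtain ⟨hcl, hrest, hrows⟩ := hg
  obtain ⟨htG, hnd, hcl2, hKv⟩ := class_spec hm hid hsem hH hcl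
  have hone : gOf w mask e idc = (1 : Equiv.Perm α) := gOf_eq (rep_one hid)
  have hrep1 : ∀ c ∈ idc :: rest, Rep w mask e c (gOf w mask e c) ∧
      gOf w mask e c ∈ H w mask e T := by
    intro c hc
    rcases List.mem_cons.1 hc with rfl | hc
    · rw [hone]
      exact ⟨rep_one hid, one_mem _⟩
    · have h1 := (allL_eq_true _ _).1 hrest c hc
      simp only [repChk, ifB_eq_true] at h1
      exact ⟨gOf_rep hm hid h1.1, gOf_mem hm hid hsem hH h1.1 h1.2.1⟩
  have hrep2 : ∀ k, k < rest.length + 1 →
      Rep w mask e (nthN (idc :: rest) k) (gOf w mask e (nthN (idc :: rest) k)) ∧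
        gOf w mask e (nthN (idc :: rest) k) ∈ H w mask e T := fun k hk =>
    hrep1 _ (nthN_mem _ k (by simpa using hk))
  have hKG : ∀ x ∈ K, validB n w mask idc x = true ∧ gOf w mask e x ∈ H w mask e T := by
    intro x hx
    refine ⟨hKv x hx, ?_⟩
    obtain ⟨u, hu, he⟩ := (hcl2 _).1 (List.mem_map.2 ⟨x, hx, rfl⟩)
    rw [he]
    exact mul_mem (mul_mem hu htG) (inv_mem hu)
  let r : ℕ → H w mask e T := fun k =>
    if h : gOf w mask e (nthN (idc :: rest) k) ∈ H w mask e T then ⟨_, h⟩ else 1
  have hrv : ∀ k, k < rest.length + 1 →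
      ((r k : H w mask e T) : Equiv.Perm α) = gOf w mask e (nthN (idc :: rest) k) := by
    intro k hk
    simp only [r]
    rw [dif_pos (hrep2 k hk).2]
  have hr0 : r 0 = 1 := by
    apply Subtype.ext
    rw [hrv 0 (by omega)]
    exact hone
  have hr : ∀ k, k < rest.length + 1 → k ≠ 0 → r k ≠ 1 := by
    intro k hk hk0 hrk
    have h1 : gOf w mask e (nthN (idc :: rest) k) = 1 := by
      rw [← hrv k hk, hrk]
      rfl
    have h2 := (hrep2 k hk).1
    rw [h1] at h2
    obtain ⟨k', rfl⟩ := Nat.exists_eq_succ_of_ne_zero hk0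
    have h3 : nthN (idc :: rest) (k' + 1) = nthN rest k' := rfl
    change Rep w mask e (nthN (idc :: rest) (k' + 1)) 1 at h2
    rw [h3] at h2
    have hmem : nthN rest k' ∈ rest := nthN_mem _ k' (by simpa using hk)
    have h4 := (allL_eq_true _ _).1 hrest _ hmem
    simp only [repChk, ifB_eq_true] at h4
    obtain ⟨-, -, h5, h6⟩ := h4
    have h7 : nthN rest k' = idc := by
      apply eq_of_digits hm n _ _ (Nat.le_of_ble_eq_true h5) hidc
      intro i hi
      have h8 := h2 (e.symm ⟨i, hi⟩)
      rw [hid i hi]
      simpa using h8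
    rw [h7, Nat.beq_refl] at h6
    simp at h6
  have hrow : ∀ χ : H w mask e T → ℂ, IsIrrCharacter _ χ → ∃ ω : ℂ, ∀ j, j < rest.length + 1 →
      ∑ k ∈ Finset.range (rest.length + 1), (mat Ws j k : ℂ) * χ (r k) = ω * χ (r j) := by
    intro χ hχ
    have h10 : χ 1 ≠ 0 := Cfsg.Agent.Lib.Char.Complete.irr_one_ne_zero hχ
    refine ⟨((K.map (gOf w mask e)).length : ℂ) * ext χ (gOf w mask e t) / χ 1, ?_⟩
    intro j hj
    have hF := all2_spec _ _ _ hrows
    have hrj := forall2_nth hF j (by simpa using hj)
    obtain ⟨h1, h2⟩ := row_sum hm hid hsem hH hχ (hrep2 j hj).1 (hrep2 j hj).2 hKG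
      (fun k hk => (hrep2 k hk).1) hrj
    have h3 := sum_list_class hχ htG (K.map (gOf w mask e)) hnd hcl2 (hrep2 j hj).2
    rw [List.map_map] at h3
    have h4 : ((fun y => ext χ (gOf w mask e (nthN (idc :: rest) j) * y)) ∘ gOf w mask e) =
        fun x => ext χ (gOf w mask e (nthN (idc :: rest) j) * gOf w mask e x) := rfl
    rw [h4, h1] at h3
    have h5 : ∀ k, k < rest.length + 1 → χ (r k) = ext χ (gOf w mask e (nthN (idc :: rest) k)) := by
      intro k hk
      rw [← hrv k hk, ext_coe]
    have h6 := sum_map_snd (Ws.getD j []) (fun k => ext χ (gOf w mask e (nthN (idc :: rest) k)))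
      (rest.length + 1) h2
    have h7 : ∑ k ∈ Finset.range (rest.length + 1), (mat Ws j k : ℂ) * χ (r k) =
        (((Ws.getD j []).map fun p => ext χ (gOf w mask e (nthN (idc :: rest) p.2))).sum) := by
      rw [h6]
      refine Finset.sum_congr rfl fun k hk => ?_
      rw [h5 k (Finset.mem_range.1 hk)]
      rfl
    rw [h7, h5 j hj]
    field_simp
    exact h3
  simp only [arithChk, Bool.and_eq_true, decide_eq_true_eq, List.all_eq_true, List.mem_range] at ha
  obtain ⟨⟨⟨⟨⟨⟨hn0, hL0⟩, hN⟩, hd⟩, haa⟩, hs⟩, hA⟩ := ha
  refine exists_irr_dvd hn0 r hr0 hr (mat Ws) (fun j => Lv.getD j 0) lam hrow ?_ hL0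
    (fun j => C.getD j 0) N hN hd haa hs ?_
  · intro k hk
    rw [sum_range_eq_list]
    exact (hA k hk).1
  · intro k hk
    rw [sum_range_eq_list]
    exact (hA k hk).2

/-- The variant with the check of a chain. -/
theorem exists_irr_dvd_of_checkAll {T : List Nat} {prog : List (Nat × Nat × Nat)} {ls : List Lev}
    (hT : ∀ c ∈ T, ∃ g, Rep w mask e c g)
    (hc : checkAll n w mask L maskL idc T prog ls = true) {rest : List Nat} {t : Nat}
    {K U : List Nat} {Ws : List (List (Nat × Nat))}
    (hg : groupChk n w mask L maskL idc ls T rest t K U Ws = true)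
    {Lv : List ℤ} {lam : ℤ} {C : List ℤ} {N : ℤ} {d a : ℕ} {s : ℤ}
    (ha : arithChk (rest.length + 1) Ws Lv lam C N d a s = true) :
    ∃ χ : H w mask e T → ℂ, IsIrrCharacter _ χ ∧ d ∣ charDegree χ := by
  obtain ⟨hm, hid, hidc, hsem, hH, -⟩ := main_of_checkAll hT hc
  exact exists_irr_dvd_of_check hm hid hidc hsem hH hg ha

omit [Finite α] in
/-- Valid generators represent permutations. -/
theorem exists_rep_of_checkAll {T : List Nat} {prog : List (Nat × Nat × Nat)} {ls : List Lev}
    (hc : checkAll n w mask L maskL idc T prog ls = true)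
    (hv : ∀ c ∈ T, validB n w mask idc c = true) : ∀ c ∈ T, ∃ g, Rep w mask e c g := by
  simp only [checkAll, ifB_eq_true] at hc
  obtain ⟨h1, h2, h3, h4, h5, h6⟩ := hc
  have hm : mask = 2 ^ w - 1 := Nat.eq_of_beq_eq_true h1
  have hid : ∀ i < n, app w mask idc i = i := fun i hi =>
    Nat.eq_of_beq_eq_true ((allL_eq_true _ _).1 h3 i (List.mem_range.2 hi))
  exact fun c hc => exists_rep_of_valid hm hid (hv c hc)

end Sound

end Cfsg.Agent.Lib.IrrCert.Perm
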